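import Cfsg.Agent.Lib.Transfer.Basic
import Cfsg.Agent.Lib.PGroups.MaximalClass
import Mathlib

/-!
# Elements of a Sylow 2-subgroup acting on a cyclic 2-subgroup

If `P` is a Sylow 2-subgroup normalizing `⟨a⟩` with `a` a 2-element, every power of `a` conjugate to
`a` in `G` is already conjugate to `a` under `P`.
-/

set_option autoImplicit false
set_option linter.unusedSectionVars false

namespace Cfsg.Agent.Lib.CharDeg.FieldTwo.Action

open Subgroup

universe u

variable {G : Type u} [Group G] [Finite G]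

theorem order_conj (x a : G) : orderOf (x * a * x⁻¹) = orderOf a := by
  have := orderOf_injective (MulAut.conj x).toMonoidHom (MulAut.conj x).injective a
  simpa [MulAut.conj_apply] using this

theorem mem_normalizer_of_conj_mem {a x : G} (h : x * a * x⁻¹ ∈ zpowers a) :
    x ∈ normalizer (zpowers a : Set G) := by
  have hle : zpowers (x * a * x⁻¹) ≤ zpowers a := by
    rw [zpowers_le]; exact h
  have hord : orderOf (x * a * x⁻¹) = orderOf a := order_conj x a
  have heq : zpowers (x * a * x⁻¹) = zpowers a := by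
    apply Subgroup.eq_of_le_of_card_ge hle
    rw [Nat.card_zpowers, Nat.card_zpowers, hord]
  rw [mem_normalizer_iff]
  intro h'
  constructor
  · intro hh
    obtain ⟨i, rfl⟩ := mem_zpowers_iff.mp hh
    rw [← heq, ← conj_zpow]
    exact zpow_mem (mem_zpowers _) _
  · intro hh
    rw [← heq] at hh
    obtain ⟨i, hi⟩ := mem_zpowers_iff.mp hh
    rw [conj_zpow] at hi
    have : a ^ i = h' := by
      have h2 := mul_left_cancel (mul_right_cancel hi)
      exact h2
    rw [← this]
    exact zpow_mem (mem_zpowers _) _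

/-- Elements normalizing `⟨a⟩` act by natural powers. -/
theorem exists_pow_of_mem_normalizer {a x : G} (h : x ∈ normalizer (zpowers a : Set G)) :
    ∃ t : ℕ, x * a * x⁻¹ = a ^ t := by
  have h1 : x * a * x⁻¹ ∈ zpowers a := (mem_normalizer_iff.mp h a).mp (mem_zpowers a)
  rw [← mem_powers_iff_mem_zpowers, Submonoid.mem_powers_iff] at h1
  obtain ⟨t, ht⟩ := h1
  exact ⟨t, ht.symm⟩

theorem conj_pow_iter {a x : G} {t : ℕ} (h : x * a * x⁻¹ = a ^ t) (l : ℕ) :
    x ^ l * a * (x ^ l)⁻¹ = a ^ t ^ l := by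
  induction l with
  | zero => simp
  | succ l ih =>
    have h1 : x ^ (l + 1) * a * (x ^ (l + 1))⁻¹ = x * (x ^ l * a * (x ^ l)⁻¹) * x⁻¹ := by
      rw [pow_succ']
      group
    rw [h1, ih, ← conj_pow, h, ← pow_mul, pow_succ]
    congr 1
    ring

/-- Odd-order elements normalizing the cyclic 2-group `⟨a⟩` centralize it. -/
theorem conj_eq_of_odd {a v : G} {j : ℕ} (haj : a ^ 2 ^ j = 1)
    (hv : v ∈ normalizer (zpowers a : Set G)) (hodd : Nat.Coprime (orderOf v) 2) :
    v * a * v⁻¹ = a := by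
  obtain ⟨t, ht⟩ := exists_pow_of_mem_normalizer hv
  have h1 : orderOf (a ^ t) = orderOf a := by rw [← ht]; exact order_conj v a
  have hpos : 0 < orderOf a := orderOf_pos a
  have hcop : t.Coprime (orderOf a) := by
    by_cases ht0 : t = 0
    · subst ht0
      rw [pow_zero, orderOf_one] at h1
      rw [← h1]
      exact Nat.coprime_one_right 0
    · rw [orderOf_pow' a ht0] at h1
      have h3 : orderOf a / (orderOf a).gcd t * (orderOf a).gcd t = orderOf a :=
        Nat.div_mul_cancel (Nat.gcd_dvd_left _ _)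
      rw [h1] at h3
      have h4 : (orderOf a).gcd t = 1 := by
        have : orderOf a * (orderOf a).gcd t = orderOf a * 1 := by rw [h3, mul_one]
        exact Nat.eq_of_mul_eq_mul_left hpos this
      rw [Nat.coprime_comm]
      exact h4
  have h2 := Nat.ModEq.pow_totient hcop
  have h3 : a ^ t ^ (orderOf a).totient = a := by
    have := (pow_eq_pow_iff_modEq (x := a)).mpr h2
    rw [this, pow_one]
  have h4 := conj_pow_iter ht (orderOf a).totient
  rw [h3] at h4
  obtain ⟨i, -, hi⟩ := (Nat.dvd_prime_pow Nat.prime_two).mp (orderOf_dvd_of_pow_eq_one haj)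
  have hco2 : Nat.Coprime (orderOf a).totient (orderOf v) := by
    rw [hi]
    cases i with
    | zero => simp
    | succ i =>
      rw [Nat.totient_prime_pow_succ Nat.prime_two]
      simp only [Nat.add_one_sub_one, mul_one]
      exact (hodd.symm.pow_left i)
  obtain ⟨e, he⟩ := exists_pow_eq_self_of_coprime hco2
  have hcomm : Commute (v ^ (orderOf a).totient) a := by
    rw [commute_iff_eq]
    rw [mul_inv_eq_iff_eq_mul] at h4
    exact h4
  have hc2 : Commute v a := by
    rw [← he]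
    exact hcomm.pow_left e
  rw [hc2.eq]
  group

/-- **Control by the Sylow 2-subgroup.** If `P` normalizes `⟨a⟩`, `a` a 2-element, then any
conjugation of `a` to a power of `a` in `G` is realized inside `P`. -/
theorem exists_mem_sylow_conj (P : Sylow 2 G) {a : G} {j : ℕ} (haj : a ^ 2 ^ j = 1)
    (hP : ∀ p ∈ (P : Subgroup G), p * a * p⁻¹ ∈ zpowers a) {x : G} {k : ℕ}
    (hx : x * a * x⁻¹ = a ^ k) : ∃ p ∈ (P : Subgroup G), p * a * p⁻¹ = a ^ k := by
  classical
  set N := normalizer (zpowers a : Set G) with hN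
  have hxN : x ∈ N := by
    apply mem_normalizer_of_conj_mem
    rw [hx]
    exact pow_mem (mem_zpowers a) k
  have hPN : (P : Subgroup G) ≤ N := fun p hp => mem_normalizer_of_conj_mem (hP p hp)
  obtain ⟨u, v, hxuv, hcomm, hu, hv, ⟨i, hi⟩, hvo⟩ :=
    Cfsg.Agent.Lib.Transfer.Basic.exists_pPart_decomp (p := 2) x
  have hzle : zpowers x ≤ N := by rw [zpowers_le]; exact hxN
  have huN : u ∈ N := hzle hu
  have hvN : v ∈ N := hzle hv
  have hva : v * a * v⁻¹ = a := conj_eq_of_odd haj hvN hvo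
  have hua : u * a * u⁻¹ = a ^ k := by
    rw [← hx, hxuv]
    have : u * v * a * (u * v)⁻¹ = u * (v * a * v⁻¹) * u⁻¹ := by group
    rw [this, hva]
  let uN : N := ⟨u, huN⟩
  have hQ : IsPGroup 2 (zpowers uN) := by
    rintro ⟨g, hg⟩
    obtain ⟨l, rfl⟩ := mem_zpowers_iff.mp hg
    refine ⟨i, ?_⟩
    apply Subtype.ext
    apply Subtype.ext
    simp only [SubmonoidClass.mk_pow, Subgroup.coe_pow, Subgroup.coe_zpow, OneMemClass.coe_one,
      uN]
    rw [← zpow_natCast, ← zpow_mul, mul_comm, zpow_mul, zpow_natCast, hi, one_zpow]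
  obtain ⟨Q, hQ'⟩ := hQ.exists_le_sylow
  obtain ⟨n, hn⟩ := MulAction.exists_smul_eq N Q (P.subtype hPN)
  have hmem : n * uN * n⁻¹ ∈ ((n • Q : Sylow 2 N) : Subgroup N) := by
    rw [Sylow.smul_def, Sylow.pointwise_smul_def, Subgroup.mem_pointwise_smul_iff_inv_smul_mem]
    have h1 : uN ∈ (Q : Subgroup N) := hQ' (mem_zpowers uN)
    convert h1 using 1
    simp [MulAut.smul_def, MulAut.conj_inv_apply, mul_assoc]
  rw [hn, Sylow.coe_subtype, mem_subgroupOf] at hmem
  refine ⟨_, hmem, ?_⟩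
  obtain ⟨e, he⟩ := exists_pow_of_mem_normalizer (inv_mem n.2)
  have hp : (((n * uN * n⁻¹ : N) : G)) = (n : G) * u * (n : G)⁻¹ := by
    simp [uN]
  have he' : (n : G)⁻¹ * a * (n : G) = a ^ e := by
    rw [← he]
    group
  have hsub : N.subtype (n * uN * n⁻¹) = (n : G) * u * (n : G)⁻¹ := hp
  change N.subtype (n * uN * n⁻¹) * a * (N.subtype (n * uN * n⁻¹))⁻¹ = a ^ k
  rw [hsub]
  calc (n : G) * u * (n : G)⁻¹ * a * ((n : G) * u * (n : G)⁻¹)⁻¹
      = (n : G) * (u * ((n : G)⁻¹ * a * (n : G)) * u⁻¹) * (n : G)⁻¹ := by group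
    _ = (n : G) * (u * a ^ e * u⁻¹) * (n : G)⁻¹ := by rw [he']
    _ = (n : G) * ((u * a * u⁻¹) ^ e) * (n : G)⁻¹ := by rw [conj_pow]
    _ = (n : G) * ((a ^ k) ^ e) * (n : G)⁻¹ := by rw [hua]
    _ = (n : G) * ((a ^ e) ^ k) * (n : G)⁻¹ := by rw [← pow_mul, ← pow_mul, mul_comm]
    _ = ((n : G) * a ^ e * (n : G)⁻¹) ^ k := by rw [conj_pow]
    _ = a ^ k := by
      rw [← he']
      congr 1
      group

end Cfsg.Agent.Lib.CharDeg.FieldTwo.Action
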