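import Cfsg.Agent.Lib.CharDeg.FieldTwo.Fields
import Cfsg.Agent.Lib.CharDeg.FieldTwo.Action
import Mathlib

/-!
# `|P : P'| = 4` and fields of character values at an element of `P`
-/

set_option autoImplicit false
set_option linter.unusedSectionVars false

namespace Cfsg.Agent.Lib.CharDeg.FieldTwo.Main

open Cfsg Module Subgroup
open Cfsg.Agent.Lib.Char.Basic Cfsg.Agent.Lib.Char.Galois
open Cfsg.Agent.Lib.OddChar.GaloisConj
open Cfsg.Agent.Lib.CharDeg.FieldTwo.Fields Cfsg.Agent.Lib.CharDeg.FieldTwo.Action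
open Cfsg.Agent.Lib.PGroups.MaximalClass
open scoped commutatorElement

universe u

section Abstract

variable {X : Type*} [Group X] [Finite X]

/-- A central element generating a subgroup of index two forces commutativity. -/
theorem commute_of_central_index_two {b : X} (hb : ∀ u, Commute b u) (hi : (zpowers b).index = 2)
    (u v : X) : Commute u v := by
  have hH : ∀ x ∈ zpowers b, ∀ u, Commute x u := by
    intro x hx u
    obtain ⟨i, rfl⟩ := mem_zpowers_iff.mp hx
    exact (hb u).zpow_left i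
  by_cases hu : u ∈ zpowers b
  · exact hH u hu v
  by_cases hv : v ∈ zpowers b
  · exact (hH v hv u).symm
  have h1 : v * u⁻¹ ∈ zpowers b := (mul_mem_iff_of_index_two hi).mpr
    (iff_of_false hv (fun h => hu (by simpa using inv_mem h)))
  have h2 : v = v * u⁻¹ * u := by group
  rw [h2]
  exact (Commute.mul_right ((hH _ h1 u).symm) (Commute.refl u))

theorem commutator_eq_bot_of_forall {h : ∀ u v : X, Commute u v} : commutator X = ⊥ := by
  rw [eq_bot_iff, commutator_def, Subgroup.commutator_le]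
  intro a _ b _
  rw [commutatorElement_eq_one_iff_commute.mpr (h a b)]
  exact one_mem _

/-- In a nonabelian 2-group the commutator subgroup has index at least four. -/
theorem index_commutator_ne {n : ℕ} (hX : Nat.card X = 2 ^ n) {u v : X} (huv : ¬ Commute u v) :
    (commutator X).index ≠ 1 ∧ (commutator X).index ≠ 2 := by
  have hG : IsPGroup 2 X := IsPGroup.of_card hX
  have key : IsCyclic (X ⧸ commutator X) → False := by
    intro hc
    have h1 := isCyclic_of_isCyclic_abelianization hG hc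
    letI := IsCyclic.commGroup (α := X)
    exact huv (mul_comm u v)
  constructor
  · intro h1
    apply key
    have : Nat.card (X ⧸ commutator X) = 1 := h1
    haveI : Subsingleton (X ⧸ commutator X) := (Nat.card_eq_one_iff_unique.mp this).1
    exact isCyclic_of_subsingleton
  · intro h1
    apply key
    have : Nat.card (X ⧸ commutator X) = 2 := h1
    exact isCyclic_of_prime_card (p := 2) this

/-- A nonabelian group of order 8 has a commutator subgroup of index 4. -/
theorem index_of_card_eight (hX : Nat.card X = 2 ^ 3) {u v : X} (huv : ¬ Commute u v) :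
    (commutator X).index = 4 := by
  obtain ⟨h1, h2⟩ := index_commutator_ne hX huv
  have h3 : (commutator X).index ∣ 2 ^ 3 := by
    rw [← hX]
    exact index_dvd_card _
  have h4 : (commutator X).index ≠ 8 := by
    intro h5
    have h6 := card_mul_index (commutator X)
    rw [h5, hX] at h6
    have h7 : Nat.card (commutator X) = 1 := by omega
    have h8 : commutator X = ⊥ := (Subgroup.card_eq_one).mp h7
    apply huv
    have h9 : ⁅u, v⁆ ∈ commutator X := commutator_mem_commutator (mem_top u) (mem_top v)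
    rw [h8, mem_bot] at h9
    exact commutatorElement_eq_one_iff_commute.mp h9
  obtain ⟨k, hk, hk2⟩ := (Nat.dvd_prime_pow Nat.prime_two).mp h3
  interval_cases k
  · rw [pow_zero] at hk2; exact absurd hk2 h1
  · rw [pow_one] at hk2; exact absurd hk2 h2
  · rw [hk2]; norm_num
  · exact absurd (by rw [hk2]; norm_num) h4

end Abstract

section Roots

variable {G : Type u} [Group G] [Finite G]

/-- Powers of an element of order `m` and of a primitive `m`-th root of unity agree. -/
theorem zpow_eq_iff {x : G} {ζ : ℂ} {m : ℕ} (hx : orderOf x = m) (hζ : IsPrimitiveRoot ζ m)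
    (hm : m ≠ 0) (k r : ℤ) : x ^ k = x ^ r ↔ ζ ^ k = ζ ^ r := by
  have h0 : ζ ≠ 0 := hζ.ne_zero hm
  have h1 : x ^ k = x ^ r ↔ x ^ (k - r) = 1 := by
    rw [zpow_sub, mul_inv_eq_one]
  have h2 : ζ ^ k = ζ ^ r ↔ ζ ^ (k - r) = 1 := by
    rw [zpow_sub₀ h0, div_eq_one_iff_eq (zpow_ne_zero _ h0)]
  rw [h1, h2, ← orderOf_dvd_iff_zpow_eq_one, hx, hζ.zpow_eq_one_iff_dvd]

end Roots

section Forward

variable {G : Type u} [Group G] [Finite G]

theorem forward (P : Sylow 2 G) (n : ℕ) (hn : 3 ≤ n) (hP : Nat.card P = 2 ^ n) (ζ : ℂ)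
    (hζ : IsPrimitiveRoot ζ (2 ^ (n - 1))) (h4 : (commutator ↥P).index = 4) :
    ∃ g : G, g ∈ (P : Subgroup G) ∧ 2 ∣ (Subgroup.centralizer ({g} : Set G)).index ∧
      (IntermediateField.adjoin ℚ {z : ℂ | ∃ χ : Cfsg.IrrCharacter G, (χ : G → ℂ) g = z} =
          IntermediateField.adjoin ℚ ({ζ + ζ⁻¹} : Set ℂ) ∨
        IntermediateField.adjoin ℚ {z : ℂ | ∃ χ : Cfsg.IrrCharacter G, (χ : G → ℂ) g = z} =
          IntermediateField.adjoin ℚ ({ζ - ζ⁻¹} : Set ℂ)) := by
  classical
  obtain ⟨a, y, r, s, hao, hidx, hy, hr, hr3, hr1, hy2, hs⟩ := exists_structure hn hP h4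
  set m := 2 ^ (n - 1) with hm
  have hm0 : m ≠ 0 := by positivity
  haveI : NeZero m := ⟨hm0⟩
  -- the action of `P`
  have key : ∀ p : ↥P, p * a * p⁻¹ = a ∨ p * a * p⁻¹ = a ^ r := by
    intro p
    have hcomm : ∀ c ∈ zpowers a, c * a * c⁻¹ = a := by
      intro c hc
      obtain ⟨i, rfl⟩ := mem_zpowers_iff.mp hc
      rw [((Commute.refl a).zpow_left i).eq]
      group
    by_cases hp : p ∈ zpowers a
    · exact Or.inl (hcomm p hp)
    · right
      have h1 : p * y⁻¹ ∈ zpowers a := (mul_mem_iff_of_index_two hidx).mpr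
        (iff_of_false hp (fun h => hy (by simpa using inv_mem h)))
      have h2 : p * a * p⁻¹ = (p * y⁻¹) * (y * a * y⁻¹) * (p * y⁻¹)⁻¹ := by group
      rw [h2, hr]
      obtain ⟨i, hi⟩ := mem_zpowers_iff.mp h1
      rw [← hi, ((Commute.refl a).zpow_zpow i r).eq]
      group
  -- in `G`
  let a₀ : G := (a : G)
  let y₀ : G := (y : G)
  have hao₀ : orderOf a₀ = m := by rw [← hao]; exact Subgroup.orderOf_coe a
  have ha₀m : a₀ ^ m = 1 := by rw [← hao₀]; exact pow_orderOf_eq_one a₀
  have ha₀P : a₀ ∈ (P : Subgroup G) := a.2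
  have hr₀ : y₀ * a₀ * y₀⁻¹ = a₀ ^ r := by
    have := congrArg (fun t : ↥(P : Subgroup G) => (t : G)) hr
    simpa [a₀, y₀] using this
  have key₀ : ∀ p ∈ (P : Subgroup G), p * a₀ * p⁻¹ = a₀ ∨ p * a₀ * p⁻¹ = a₀ ^ r := by
    intro p hp
    rcases key ⟨p, hp⟩ with h | h
    · left
      have := congrArg (fun t : ↥(P : Subgroup G) => (t : G)) h
      simpa [a₀] using this
    · right
      have := congrArg (fun t : ↥(P : Subgroup G) => (t : G)) h
      simpa [a₀] using this
  have hPz : ∀ p ∈ (P : Subgroup G), p * a₀ * p⁻¹ ∈ zpowers a₀ := by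
    intro p hp
    rcases key₀ p hp with h | h
    · rw [h]; exact mem_zpowers a₀
    · rw [h]; exact zpow_mem (mem_zpowers a₀) r
  have hconj : ∀ k : ℕ, IsConj (a₀ ^ k) a₀ ↔ a₀ ^ k = a₀ ∨ a₀ ^ (k : ℤ) = a₀ ^ r := by
    intro k
    constructor
    · intro h
      obtain ⟨x, hx⟩ := isConj_iff.mp h.symm
      obtain ⟨p, hp, hpk⟩ := exists_mem_sylow_conj P ha₀m hPz hx
      rcases key₀ p hp with h1 | h1
      · left; rw [← hpk, h1]
      · right; rw [zpow_natCast, ← hpk, h1]
    · rintro (h | h)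
      · rw [h]
      · rw [zpow_natCast] at h
        rw [h]
        exact (isConj_iff.mpr ⟨y₀, hr₀⟩).symm
  have h0 : ζ ≠ 0 := hζ.ne_zero hm0
  -- the sign
  set ε : ℂ := ζ ^ (r + 1) with hεdef
  have hεε : ε * ε = 1 := by
    obtain ⟨t, ht⟩ := hr1
    have h2 : (2 : ℤ) ^ (n - 1) = 2 * 2 ^ (n - 2) := by
      obtain ⟨c, rfl⟩ : ∃ c, n = c + 3 := ⟨n - 3, by omega⟩
      simp only [show c + 3 - 1 = c + 2 by omega, show c + 3 - 2 = c + 1 by omega]
      ring
    rw [hεdef, ← zpow_add₀ h0, show r + 1 + (r + 1) = ((m : ℕ) : ℤ) * t by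
      rw [ht, hm]; push_cast; rw [h2]; ring]
    rw [zpow_mul, zpow_natCast, hζ.pow_eq_one, one_zpow]
  have hε : ε = 1 ∨ ε = -1 := mul_self_eq_one_iff.mp hεε
  have hεr : ε * ζ⁻¹ = ζ ^ r := by
    rw [hεdef, zpow_add₀ h0, zpow_one, mul_assoc, mul_inv_cancel₀ h0, mul_one]
  have hKw : IntermediateField.adjoin ℚ {z : ℂ | ∃ χ : Cfsg.IrrCharacter G, (χ : G → ℂ) a₀ = z} =
      IntermediateField.adjoin ℚ ({ζ + ε * ζ⁻¹} : Set ℂ) := by
    apply eq_of_fix_iff m (values_le hm0 ha₀m)
    · rw [IntermediateField.adjoin_le_iff]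
      rintro _ rfl
      have hζK : ζ ∈ Kn m := mem_Kn_of_pow_eq_one hm0 hζ.pow_eq_one
      refine add_mem hζK (mul_mem ?_ (inv_mem hζK))
      exact zpow_mem hζK _
    · intro f
      obtain ⟨k, -, hkf⟩ := exists_pow_of_primitive (Nat.pos_of_ne_zero hm0) hζ f
      rw [fix_values_iff ha₀m f hkf, fix_adjoin_iff, hconj k]
      have hfε : f ε = ε := by
        rcases hε with h | h <;> simp [h]
      have hfζ : f ζ = ζ ^ k := hkf ζ hζ.pow_eq_one
      have hfix : (∀ x ∈ ({ζ + ε * ζ⁻¹} : Set ℂ), f x = x) ↔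
          ζ ^ k + ε * (ζ ^ k)⁻¹ = ζ + ε * ζ⁻¹ := by
        simp only [Set.mem_singleton_iff, forall_eq, map_add, map_mul, map_inv₀, hfε, hfζ]
      rw [hfix, add_eq_iff h0 hεε _ (pow_ne_zero _ h0), hεr]
      have h1 : a₀ ^ k = a₀ ↔ ζ ^ k = ζ := by
        have := zpow_eq_iff hao₀ hζ hm0 (k : ℤ) 1
        simpa using this
      have h2 : a₀ ^ (k : ℤ) = a₀ ^ r ↔ ζ ^ k = ζ ^ r := by
        have := zpow_eq_iff hao₀ hζ hm0 (k : ℤ) r
        simpa using this
      rw [h1, h2]
  -- even class size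
  have heven : 2 ∣ (Subgroup.centralizer ({a₀} : Set G)).index := by
    by_contra hodd
    have hG : IsPGroup 2 ↥(P : Subgroup G) := P.isPGroup'
    haveI : Fact (Nat.Prime 2) := ⟨Nat.prime_two⟩
    obtain ⟨q, hq⟩ := hG.nonempty_fixed_point_of_prime_not_dvd_card
      (G ⧸ Subgroup.centralizer ({a₀} : Set G)) hodd
    obtain ⟨x, rfl⟩ := QuotientGroup.mk_surjective q
    set b : G := x * a₀ * x⁻¹ with hb
    have hbP : ∀ p ∈ (P : Subgroup G), Commute p b := by
      intro p hp
      have h1 := hq ⟨p⁻¹, inv_mem hp⟩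
      have h2 : ((p⁻¹ * x : G) : G ⧸ Subgroup.centralizer ({a₀} : Set G)) =
          (x : G ⧸ Subgroup.centralizer ({a₀} : Set G)) := h1
      rw [QuotientGroup.eq, Subgroup.mem_centralizer_singleton_iff] at h2
      rw [commute_iff_eq, hb]
      have h3 : (p⁻¹ * x)⁻¹ * x = x⁻¹ * p * x := by group
      rw [h3] at h2
      have h4 : p = x * (x⁻¹ * p * x) * x⁻¹ := by group
      rw [h4]
      calc x * (x⁻¹ * p * x) * x⁻¹ * (x * a₀ * x⁻¹)
          = x * ((x⁻¹ * p * x) * a₀) * x⁻¹ := by group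
        _ = x * (a₀ * (x⁻¹ * p * x)) * x⁻¹ := by rw [h2]
        _ = x * a₀ * x⁻¹ * (x * (x⁻¹ * p * x) * x⁻¹) := by group
    have hbord : orderOf b = m := by rw [hb, order_conj, hao₀]
    have hbm : b ^ m = 1 := by rw [← hbord]; exact pow_orderOf_eq_one b
    have hbmem : b ∈ (P : Subgroup G) := by
      have hzb : IsPGroup 2 (zpowers b) := by
        rw [IsPGroup.iff_card]
        refine ⟨n - 1, ?_⟩
        rw [Nat.card_zpowers, hbord]
      have hnorm : zpowers b ≤ normalizer ((P : Subgroup G) : Set G) := by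
        rw [zpowers_le, mem_normalizer_iff]
        intro h
        constructor
        · intro hh
          rw [(hbP h hh).symm.eq, mul_inv_cancel_right]
          exact hh
        · intro hh
          have h6 := (hbP _ hh).eq
          have h7 : h = b * h * b⁻¹ := by
            have h8 : b * h * b⁻¹ * b = b * h := by group
            rw [h8] at h6
            exact mul_left_cancel h6
          rw [h7]
          exact hh
      have h9 := P.is_maximal' (IsPGroup.to_sup_of_normal_left' P.isPGroup' hzb hnorm) le_sup_left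
      have h10 : zpowers b ≤ (P : Subgroup G) := by
        rw [← h9]
        exact le_sup_right
      exact h10 (mem_zpowers b)
    let b' : ↥(P : Subgroup G) := ⟨b, hbmem⟩
    have hb'c : ∀ u : ↥(P : Subgroup G), Commute b' u := by
      intro u
      apply Subtype.ext
      exact (hbP u u.2).symm.eq
    have hb'o : orderOf b' = m := by
      rw [← hbord]
      exact (Subgroup.orderOf_coe b').symm
    have hb'i : (zpowers b').index = 2 := by
      have h11 := card_mul_index (zpowers b')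
      rw [Nat.card_zpowers, hb'o, hP, hm] at h11
      obtain ⟨c, rfl⟩ : ∃ c, n = c + 1 := ⟨n - 1, by omega⟩
      simp only [Nat.add_sub_cancel] at h11
      rw [pow_succ] at h11
      exact Nat.eq_of_mul_eq_mul_left (by positivity) h11
    have hcm := commute_of_central_index_two hb'c hb'i
    have hbot : commutator ↥(P : Subgroup G) = ⊥ := commutator_eq_bot_of_forall (h := hcm)
    have h4' : (commutator ↥(P : Subgroup G)).index = 4 := h4
    rw [hbot, index_bot, hP] at h4'
    have h12 : 2 ^ 3 ≤ 2 ^ n := Nat.pow_le_pow_right (by norm_num) hn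
    omega
  refine ⟨a₀, ha₀P, heven, ?_⟩
  rcases hε with h | h
  · left
    rw [hKw, h, one_mul]
  · right
    rw [hKw, h, neg_one_mul, ← sub_eq_add_neg]

end Forward

section Backward

variable {G : Type u} [Group G] [Finite G]

theorem backward (P : Sylow 2 G) (n : ℕ) (hn : 3 ≤ n) (hP : Nat.card P = 2 ^ n) (ζ : ℂ)
    (hζ : IsPrimitiveRoot ζ (2 ^ (n - 1))) {g : G} (hgP : g ∈ (P : Subgroup G))
    (heven : 2 ∣ (Subgroup.centralizer ({g} : Set G)).index) {ε : ℂ} (hε : ε = 1 ∨ ε = -1)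
    (hK : IntermediateField.adjoin ℚ {z : ℂ | ∃ χ : Cfsg.IrrCharacter G, (χ : G → ℂ) g = z} =
      IntermediateField.adjoin ℚ ({ζ + ε * ζ⁻¹} : Set ℂ)) :
    (commutator ↥(P : Subgroup G)).index = 4 := by
  classical
  haveI : Fact (Nat.Prime 2) := ⟨Nat.prime_two⟩
  let g' : ↥(P : Subgroup G) := ⟨g, hgP⟩
  have hnc : ∃ u : ↥(P : Subgroup G), ¬ Commute u g' := by
    by_contra hall
    push Not at hall
    have hle : (P : Subgroup G) ≤ Subgroup.centralizer ({g} : Set G) := by
      intro p hp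
      rw [Subgroup.mem_centralizer_singleton_iff]
      exact congrArg Subtype.val (hall ⟨p, hp⟩).eq
    have h1 := Subgroup.index_dvd_of_le hle
    exact P.not_dvd_index (heven.trans h1)
  obtain ⟨y, hy⟩ := hnc
  by_cases hn3 : n = 3
  · subst hn3
    exact index_of_card_eight hP hy
  obtain ⟨c, rfl⟩ : ∃ c, n = c + 4 := ⟨n - 4, by omega⟩
  have hmdef : c + 4 - 1 = c + 3 := by omega
  have hm₂def : c + 4 - 2 = c + 2 := by omega
  rw [hmdef] at hζ
  set m := 2 ^ (c + 3) with hm
  set m₂ := 2 ^ (c + 2) with hm₂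
  have hmm : m = 2 * m₂ := by rw [hm, hm₂]; ring
  have hm0 : m ≠ 0 := by positivity
  have hm₂0 : m₂ ≠ 0 := by positivity
  have h0 : ζ ≠ 0 := hζ.ne_zero hm0
  have hζ2 : ζ ^ m₂ = -1 := by
    have h1 : ζ ^ m₂ * ζ ^ m₂ = 1 := by
      rw [← pow_add, show m₂ + m₂ = m by omega, hζ.pow_eq_one]
    rcases mul_self_eq_one_iff.mp h1 with h2 | h2
    · exact absurd h2 (hζ.pow_ne_one_of_pos_of_lt hm₂0 (by omega))
    · exact h2
  set k₀ := 1 + m₂ with hk₀
  have hcop : k₀.Coprime m := by
    rw [hm]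
    apply Nat.Coprime.pow_right
    exact Nat.coprime_two_right.mpr ⟨2 ^ (c + 1), by rw [hk₀, hm₂]; ring⟩
  obtain ⟨f, hf⟩ := exists_ringEquiv_pow m k₀ hm0 hcop
  have hfζ : f ζ = -ζ := by
    rw [hf ζ hζ.pow_eq_one, hk₀, pow_add, pow_one, hζ2]
    ring
  have hfε : f ε = ε := by
    rcases hε with h | h <;> simp [h]
  set w := ζ + ε * ζ⁻¹ with hw
  have hfw : f w = -w := by
    rw [hw, map_add, map_mul, map_inv₀, hfζ, hfε, inv_neg]
    ring
  have hεε : ε * ε = 1 := by
    rcases hε with h | h <;> simp [h]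
  have hw0 : w ≠ 0 := by
    intro h
    have h1 : ζ * ζ = -ε := by
      have h2 : ζ * ζ⁻¹ = 1 := mul_inv_cancel₀ h0
      have h3 : w * ζ = 0 := by rw [h, zero_mul]
      rw [hw] at h3
      linear_combination h3 - ε * h2
    have h2 : ζ ^ 4 = 1 := by
      have : ζ ^ 4 = (ζ * ζ) * (ζ * ζ) := by ring
      rw [this, h1, neg_mul_neg, hεε]
    have h3 : 4 < m := by
      rw [hm, pow_add]
      have : 1 ≤ 2 ^ c := Nat.one_le_two_pow
      calc 4 < 1 * 2 ^ 3 := by norm_num
        _ ≤ 2 ^ c * 2 ^ 3 := Nat.mul_le_mul_right _ this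
    exact hζ.pow_ne_one_of_pos_of_lt (by norm_num) h3 h2
  have hmaster : g ^ m = 1 → ¬ IsConj (g ^ k₀) g := by
    intro hgm hc
    have h1 := (fix_values_iff hgm f hf).mpr hc
    rw [hK, fix_adjoin_iff] at h1
    have h2 := h1 w rfl
    rw [hfw] at h2
    apply hw0
    have h3 : (2 : ℂ) * w = 0 := by linear_combination -h2
    exact (mul_eq_zero.mp h3).resolve_left two_ne_zero
  have hordg : orderOf g' = orderOf g := (Subgroup.orderOf_coe g').symm
  have hcard : Nat.card ↥(P : Subgroup G) = 2 ^ (c + 4) := hP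
  obtain ⟨j, hj, hgj⟩ := (Nat.dvd_prime_pow Nat.prime_two).mp
    (show orderOf g' ∣ 2 ^ (c + 4) from hcard ▸ orderOf_dvd_natCard g')
  -- the order of `g`
  have hjge : c + 3 ≤ j := by
    by_contra hlt
    have hjle : j ≤ c + 2 := by omega
    have h1 : orderOf g ∣ m₂ := by
      rw [← hordg, hgj, hm₂]
      exact pow_dvd_pow 2 hjle
    have h2 : g ^ m₂ = 1 := orderOf_dvd_iff_pow_eq_one.mp h1
    have h3 : g ^ m = 1 := by rw [hmm, mul_comm, pow_mul, h2, one_pow]
    apply hmaster h3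
    rw [hk₀, pow_add, pow_one, h2, mul_one]
  have hjne : j ≠ c + 4 := by
    rintro rfl
    have h1 : IsCyclic ↥(P : Subgroup G) := isCyclic_of_orderOf_eq_card g' (by rw [hgj, hcard])
    letI := IsCyclic.commGroup (α := ↥(P : Subgroup G))
    exact hy (mul_comm y g')
  have hj3 : j = c + 3 := by omega
  have hgord : orderOf g' = m := by rw [hgj, hj3]
  have hHi : (zpowers g').index = 2 := by
    have h11 := card_mul_index (zpowers g')
    rw [Nat.card_zpowers, hgord, hcard, hm] at h11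
    rw [pow_succ (2 : ℕ) (c + 3)] at h11
    exact Nat.eq_of_mul_eq_mul_left (by positivity) h11
  have hyH : y ∉ zpowers g' := by
    intro h
    obtain ⟨i, rfl⟩ := mem_zpowers_iff.mp h
    exact hy ((Commute.refl g').zpow_left i)
  have hHn : (zpowers g').Normal := normal_of_index_eq_two hHi
  have h1 : y * g' * y⁻¹ ∈ zpowers g' := hHn.conj_mem g' (mem_zpowers g') y
  rw [← mem_powers_iff_mem_zpowers, Submonoid.mem_powers_iff] at h1
  obtain ⟨t, ht⟩ := h1
  have ht' : y * g' * y⁻¹ = g' ^ t := ht.symm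
  -- `t ^ 2 ≡ 1`
  have hsq : g' ^ (t ^ 2) = g' := by
    have h2 := conj_pow_iter ht' 2
    have h3 : y ^ 2 ∈ zpowers g' := sq_mem_of_index_two hHi y
    obtain ⟨i, hi⟩ := mem_zpowers_iff.mp h3
    rw [← hi, ((Commute.refl g').zpow_left i).eq] at h2
    rw [← h2]
    group
  have hmod : t ^ 2 ≡ 1 [MOD m] := by
    rw [← hgord, ← pow_eq_pow_iff_modEq, hsq, pow_one]
  have hdvd : (m : ℤ) ∣ 1 - (t : ℤ) ^ 2 := by
    have := (Nat.modEq_iff_dvd).mp hmod
    simpa using this
  have hm₂4 : 4 ∣ m₂ := by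
    exact ⟨2 ^ c, by rw [hm₂]; ring⟩
  have hm₂Z : (m : ℤ) = 2 * (m₂ : ℤ) := by rw [hmm]; push_cast; ring
  obtain ⟨d₂, hd₂⟩ := hm₂4
  obtain ⟨e₀, he₀⟩ := hdvd
  have ht4 : t % 4 = 1 ∨ t % 4 = 3 := by
    have h4 : t % 4 < 4 := Nat.mod_lt _ (by norm_num)
    by_contra hne
    have hev : t % 2 = 0 := by omega
    obtain ⟨q, hq⟩ : ∃ q, t = 2 * q := ⟨t / 2, by omega⟩
    rw [hq, hm₂Z, hd₂] at he₀
    push_cast at he₀
    have h5 : (1 : ℤ) = 2 * (2 * q * q + 4 * d₂ * e₀) := by linear_combination he₀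
    omega
  rcases ht4 with h41 | h43
  · -- `t ≡ 1` modulo 4: contradiction
    exfalso
    obtain ⟨q, hq⟩ : ∃ q, t = 4 * q + 1 := ⟨t / 4, by omega⟩
    have hcopZ : IsCoprime (m₂ : ℤ) (2 * (q : ℤ) + 1) := by
      rw [hm₂]
      push_cast
      apply IsCoprime.pow_left
      exact ⟨-(q : ℤ), 1, by ring⟩
    have h5 : (m₂ : ℤ) ∣ (4 * (q : ℤ)) * (2 * (q : ℤ) + 1) := by
      refine ⟨-e₀, ?_⟩
      rw [hq, hm₂Z] at he₀
      push_cast at he₀
      have : (2 : ℤ) * (4 * q * (2 * q + 1)) = 2 * (m₂ * -e₀) := by linear_combination -he₀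
      exact mul_left_cancel₀ two_ne_zero this
    have h6 : (m₂ : ℤ) ∣ 4 * (q : ℤ) := hcopZ.dvd_of_dvd_mul_right h5
    have h7 : m₂ ∣ 4 * q := by exact_mod_cast h6
    obtain ⟨e, he⟩ := h7
    have hz : (g' ^ m₂) ^ 2 = 1 := by
      rw [← pow_mul, show m₂ * 2 = m by omega, ← hgord]
      exact pow_orderOf_eq_one g'
    have htp : g' ^ t = g' * (g' ^ m₂) ^ e := by
      rw [hq, he, add_comm, pow_add, pow_one, pow_mul]
    rcases Nat.even_or_odd' e with ⟨e', rfl | rfl⟩
    · rw [pow_mul, hz, one_pow, mul_one] at htp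
      apply hy
      rw [commute_iff_eq]
      rw [htp, mul_inv_eq_iff_eq_mul] at ht'
      exact ht'
    · rw [pow_succ, pow_mul, hz, one_pow, one_mul] at htp
      have hgo : orderOf g = m := by rw [← hordg]; exact hgord
      have h8 : g ^ m = 1 := by
        rw [← hgo]
        exact pow_orderOf_eq_one g
      apply hmaster h8
      refine IsConj.symm (isConj_iff.mpr ⟨(y : G), ?_⟩)
      rw [htp] at ht'
      have h9 := congrArg Subtype.val ht'
      simpa [g', hk₀, pow_add] using h9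
  · -- `t ≡ 3` modulo 4: the index is 4
    obtain ⟨q, hq⟩ : ∃ q, t = 4 * q + 3 := ⟨t / 4, by omega⟩
    have hord2 : orderOf (g' ^ 2) = m₂ := by
      rw [orderOf_pow_of_dvd (by norm_num) (by rw [hgord, hmm]; exact dvd_mul_right _ _), hgord,
        hmm]
      simp
    have hcomm : (g' ^ 2) ^ (2 * q + 1) ∈ commutator ↥(P : Subgroup G) := by
      have h2 : ⁅y, g'⁆ ∈ commutator ↥(P : Subgroup G) :=
        commutator_mem_commutator (mem_top y) (mem_top g')
      have h3 : ⁅y, g'⁆ = (g' ^ 2) ^ (2 * q + 1) := by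
        rw [commutatorElement_def, ht', hq, ← pow_mul, mul_inv_eq_iff_eq_mul]
        rw [← pow_succ]
        congr 1
        ring
      rwa [h3] at h2
    have hco : (2 * q + 1).Coprime (orderOf (g' ^ 2)) := by
      rw [hord2, hm₂]
      apply Nat.Coprime.pow_right
      exact Nat.coprime_two_right.mpr ⟨q, rfl⟩
    obtain ⟨e, he⟩ := exists_pow_eq_self_of_coprime hco
    have hsqm : g' ^ 2 ∈ commutator ↥(P : Subgroup G) := by
      rw [← he]
      exact pow_mem hcomm e
    have hle : zpowers (g' ^ 2) ≤ commutator ↥(P : Subgroup G) := by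
      rw [zpowers_le]
      exact hsqm
    have hidx : (zpowers (g' ^ 2)).index = 4 := by
      have h11 := card_mul_index (zpowers (g' ^ 2))
      rw [Nat.card_zpowers, hord2, hcard] at h11
      have h12 : m₂ * 4 = 2 ^ (c + 4) := by rw [hm₂]; ring
      rw [← h12] at h11
      exact Nat.eq_of_mul_eq_mul_left (Nat.pos_of_ne_zero hm₂0) h11
    have hd := Subgroup.index_dvd_of_le hle
    rw [hidx] at hd
    obtain ⟨h1', h2'⟩ := index_commutator_ne hcard hy
    have h4le := Nat.le_of_dvd (by norm_num) hd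
    interval_cases hx : (commutator ↥(P : Subgroup G)).index
    · simp at hd
    · exact absurd rfl h1'
    · exact absurd rfl h2'
    · simp at hd
    · rfl

end Backward

end Cfsg.Agent.Lib.CharDeg.FieldTwo.Main
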